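import Mathlib

set_option autoImplicit false

namespace Cfsg.Agent.H891.MinDeg

open Finset

section Graph

variable {G Ω : Type*} [Group G] [MulAction G Ω]

theorem reachable_smul (Γ : SimpleGraph Ω) (hΓ : ∀ (h : G) (x y : Ω), Γ.Adj x y → Γ.Adj (h • x) (h • y))
    (h : G) {x y : Ω} (hr : Γ.Reachable x y) : Γ.Reachable (h • x) (h • y) :=
  hr.map (⟨fun x => h • x, fun {a b} hab => hΓ h a b hab⟩ : Γ →g Γ)

/-- An invariant graph with an edge is connected if the group is primitive. -/
theorem connected_of_primitive (hprim : MulAction.IsPreprimitive G Ω) (Γ : SimpleGraph Ω)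
    (hΓ : ∀ (h : G) (x y : Ω), Γ.Adj x y → Γ.Adj (h • x) (h • y))
    (a b : Ω) (hab : Γ.Adj a b) : Γ.Connected := by
  have hB : MulAction.IsBlock G {y | Γ.Reachable a y} := by
    rw [MulAction.isBlock_iff_smul_eq_or_disjoint]
    intro g
    by_cases hg : Γ.Reachable a (g • a)
    · left
      ext y
      rw [Set.mem_smul_set_iff_inv_smul_mem]
      simp only [Set.mem_ofPred_eq]
      constructor
      · intro h
        have := reachable_smul Γ hΓ g h
        rw [smul_inv_smul] at this
        exact hg.trans this
      · intro h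
        have := reachable_smul Γ hΓ g⁻¹ (hg.symm.trans h)
        rw [inv_smul_smul] at this
        exact this
    · right
      rw [Set.disjoint_left]
      intro y hy hy'
      rw [Set.mem_smul_set_iff_inv_smul_mem] at hy
      simp only [Set.mem_ofPred_eq] at hy hy'
      have := reachable_smul Γ hΓ g hy
      rw [smul_inv_smul] at this
      exact hg (hy'.trans this.symm)
  have huniv : {y | Γ.Reachable a y} = Set.univ := by
    rcases hprim.isTrivialBlock_of_isBlock hB with h | h
    · exact absurd (h (show a ∈ {y | Γ.Reachable a y} from SimpleGraph.Reachable.refl a)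
        (show b ∈ {y | Γ.Reachable a y} from hab.reachable)) hab.ne
    · exact h
  have hall : ∀ y, Γ.Reachable a y := fun y => by
    have : y ∈ {y | Γ.Reachable a y} := by rw [huniv]; trivial
    exact this
  exact { preconnected := fun x y => (hall x).symm.trans (hall y), nonempty := ⟨a⟩ }

theorem dist_smul (Γ : SimpleGraph Ω) (hc : Γ.Connected)
    (hΓ : ∀ (h : G) (x y : Ω), Γ.Adj x y → Γ.Adj (h • x) (h • y))
    (h : G) (x y : Ω) : Γ.dist (h • x) (h • y) = Γ.dist x y := by
  have aux : ∀ (h : G) (x y : Ω), Γ.dist (h • x) (h • y) ≤ Γ.dist x y := by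
    intro h x y
    obtain ⟨p, hp⟩ := hc.exists_walk_length_eq_dist x y
    have := SimpleGraph.dist_le
      (p.map (⟨fun x => h • x, fun {a b} hab => hΓ h a b hab⟩ : Γ →g Γ))
    rw [SimpleGraph.Walk.length_map, hp] at this
    exact this
  apply le_antisymm (aux h x y)
  have := aux h⁻¹ (h • x) (h • y)
  rwa [inv_smul_smul, inv_smul_smul] at this

theorem exists_parent (Γ : SimpleGraph Ω) (hc : Γ.Connected) {x z : Ω} (hxz : x ≠ z) :
    ∃ y, Γ.Adj x y ∧ Γ.dist y z + 1 = Γ.dist x z := by
  obtain ⟨p, hp⟩ := hc.exists_walk_length_eq_dist x z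
  cases p with
  | nil => exact absurd rfl hxz
  | @cons _ y _ hxy q =>
    refine ⟨y, hxy, ?_⟩
    rw [SimpleGraph.Walk.length_cons] at hp
    have h1 := SimpleGraph.dist_le q
    have h2 := hc.dist_triangle (u := x) (v := y) (w := z)
    rw [SimpleGraph.dist_eq_one_iff_adj.mpr hxy] at h2
    omega

end Graph

section Colours

variable {G Ω Q : Type*} [Group G] [MulAction G Ω] [Fintype Ω] [DecidableEq Ω] [DecidableEq Q]

/-- The number of points which tell `x` and `y` apart. -/
def psi (c : Ω → Ω → Q) (x y : Ω) : ℕ := (univ.filter (fun z => c x z ≠ c y z)).card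

theorem psi_symm (c : Ω → Ω → Q) (x y : Ω) : psi c x y = psi c y x := by
  unfold psi
  congr 1
  ext z
  simp only [mem_filter, mem_univ, true_and]
  exact ne_comm

theorem psi_triangle (c : Ω → Ω → Q) (x y w : Ω) : psi c x w ≤ psi c x y + psi c y w := by
  unfold psi
  refine le_trans (card_le_card ?_) (card_union_le _ _)
  intro z
  simp only [mem_filter, mem_univ, true_and, mem_union]
  intro h
  by_contra hcon
  push Not at hcon
  exact h (hcon.1.trans hcon.2)

variable (c : Ω → Ω → Q)
  (hc : ∀ x y x' y', c x y = c x' y' ↔ ∃ h : G, h • x = x' ∧ h • y = y')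

include hc

theorem c_smul (h : G) (x y : Ω) : c (h • x) (h • y) = c x y :=
  ((hc _ _ _ _).mpr ⟨h, rfl, rfl⟩).symm

theorem psi_smul (h : G) (x y : Ω) : psi c (h • x) (h • y) = psi c x y := by
  unfold psi
  symm
  apply card_bij (fun z _ => h • z)
  · intro z hz
    simp only [mem_filter, mem_univ, true_and] at hz ⊢
    rwa [c_smul c hc, c_smul c hc]
  · intro z _ w _ hzw
    exact smul_left_cancel h hzw
  · intro w hw
    refine ⟨h⁻¹ • w, ?_, smul_inv_smul _ _⟩
    simp only [mem_filter, mem_univ, true_and] at hw ⊢
    rw [← c_smul c hc h x, ← c_smul c hc h y, smul_inv_smul]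
    exact hw

theorem card_filter_smul (P : Ω → Ω → Prop) [∀ x y, Decidable (P x y)]
    (hP : ∀ (h : G) (x y : Ω), P x y → P (h • x) (h • y)) (h : G) (x : Ω) :
    (univ.filter (fun y => P (h • x) y)).card = (univ.filter (fun y => P x y)).card := by
  symm
  apply card_bij (fun z _ => h • z)
  · intro z hz
    simp only [mem_filter, mem_univ, true_and] at hz ⊢
    exact hP h _ _ hz
  · intro z _ w _ hzw
    exact smul_left_cancel h hzw
  · intro w hw
    refine ⟨h⁻¹ • w, ?_, smul_inv_smul _ _⟩
    simp only [mem_filter, mem_univ, true_and] at hw ⊢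
    have := hP h⁻¹ _ _ hw
    rwa [inv_smul_smul] at this

omit hc in
/-- constant degree -/
theorem deg_eq (hprim : MulAction.IsPretransitive G Ω) (P : Ω → Ω → Prop) [∀ x y, Decidable (P x y)]
    (hP : ∀ (h : G) (x y : Ω), P x y → P (h • x) (h • y)) (x x' : Ω) :
    (univ.filter (fun y => P x y)).card = (univ.filter (fun y => P x' y)).card := by
  obtain ⟨h, rfl⟩ := hprim.exists_smul_eq x' x
  symm
  apply card_bij (fun z _ => h • z)
  · intro z hz
    simp only [mem_filter, mem_univ, true_and] at hz ⊢
    exact hP h _ _ hz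
  · intro z _ w _ hzw
    exact smul_left_cancel h hzw
  · intro w hw
    refine ⟨h⁻¹ • w, ?_, smul_inv_smul _ _⟩
    simp only [mem_filter, mem_univ, true_and] at hw ⊢
    have := hP h⁻¹ _ _ hw
    rwa [inv_smul_smul] at this

/-- in-degree equals out-degree -/
theorem indeg_eq_outdeg (hprim : MulAction.IsPretransitive G Ω) (i : Q) (x z : Ω) :
    (univ.filter (fun y => c y z = i)).card = (univ.filter (fun y => c x y = i)).card := by
  have h1 : ∑ w : Ω, (univ.filter (fun y => c y w = i)).card
      = ∑ w : Ω, (univ.filter (fun y => c w y = i)).card := by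
    simp only [card_filter]
    rw [sum_comm]
  have h2 : ∀ w, (univ.filter (fun y => c y w = i)).card = (univ.filter (fun y => c y z = i)).card := by
    intro w
    exact deg_eq hprim (fun w y => c y w = i) (fun h x y hxy => by rw [c_smul c hc]; exact hxy) w z
  have h3 : ∀ w, (univ.filter (fun y => c w y = i)).card = (univ.filter (fun y => c x y = i)).card := by
    intro w
    exact deg_eq hprim (fun w y => c w y = i) (fun h x y hxy => by rw [c_smul c hc]; exact hxy) w x
  rw [sum_congr rfl (fun w _ => h2 w), sum_congr rfl (fun w _ => h3 w), sum_const, sum_const,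
    smul_eq_mul, smul_eq_mul] at h1
  have hpos : 0 < (univ : Finset Ω).card := card_pos.mpr ⟨x, mem_univ _⟩
  exact Nat.eq_of_mul_eq_mul_left hpos h1

/-- The set of points in a fixed colour is not too large. -/
theorem colour_bound (hprim : MulAction.IsPreprimitive G Ω)
    (hn : 2 ≤ Fintype.card Ω)
    (p x₀ y₀ : Ω) (hx₀ : x₀ ≠ p) (hy₀ : y₀ ≠ p) (hne : c p x₀ ≠ c p y₀)
    (i : Q) (x : Ω) :
    Fintype.card Ω ≤ (Fintype.card Ω - (univ.filter (fun y => c x y = i)).card) ^ 2 ∨
    Fintype.card Ω ≤ 2 * (Fintype.card Ω - (univ.filter (fun y => c x y = i)).card) := by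
  have htr : MulAction.IsPretransitive G Ω := hprim.toIsPretransitive
  by_cases hbig : 2 * (univ.filter (fun y => c x y = i)).card ≤ Fintype.card Ω
  · right; omega
  left
  push Not at hbig
  have hout : ∀ w, (univ.filter (fun y => c w y = i)).card = (univ.filter (fun y => c x y = i)).card := by
    intro w
    exact deg_eq htr (fun w y => c w y = i) (fun h x y hxy => by rw [c_smul c hc]; exact hxy) w x
  have hin : (univ.filter (fun y => c y x = i)).card = (univ.filter (fun y => c x y = i)).card :=
    indeg_eq_outdeg c hc htr i x x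
  -- self-paired
  have hself : ∃ y, c x y = i ∧ c y x = i := by
    by_contra hcon
    push Not at hcon
    have hdisj : Disjoint (univ.filter (fun y => c x y = i)) (univ.filter (fun y => c y x = i)) := by
      rw [disjoint_left]
      intro y hy hy'
      simp only [mem_filter, mem_univ, true_and] at hy hy'
      exact hcon y hy hy'
    have := card_union_of_disjoint hdisj
    have h2 := card_le_univ ((univ.filter (fun y => c x y = i)) ∪ (univ.filter (fun y => c y x = i)))
    omega
  obtain ⟨y₁, hy1, hy1'⟩ := hself
  have hpair : ∀ u v, c u v = i → c v u = i := by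
    intro u v huv
    rw [← hy1, eq_comm, hc] at huv
    obtain ⟨h, rfl, rfl⟩ := huv
    rw [c_smul c hc, hy1']
  have hdiag : ∀ u, c u u ≠ i := by
    intro u hu
    have h1 : (univ.filter (fun y => c u y = i)) = {u} := by
      ext y
      simp only [mem_filter, mem_univ, true_and, mem_singleton]
      constructor
      · intro h
        rw [← hu, eq_comm, hc] at h
        obtain ⟨h, h1, h2⟩ := h
        rw [← h2, h1]
      · rintro rfl
        exact hu
    have h2 := hout u
    rw [h1, card_singleton] at h2
    omega
  let Γ : SimpleGraph Ω :=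
    { Adj := fun x y => x ≠ y ∧ c x y ≠ i
      symm := ⟨fun u v huv => ⟨huv.1.symm, fun h => huv.2 (hpair v u h)⟩⟩
      loopless := ⟨fun u hu => hu.1 rfl⟩ }
  have hΓ : ∀ (h : G) (x y : Ω), Γ.Adj x y → Γ.Adj (h • x) (h • y) := by
    intro h x y hxy
    exact ⟨fun h' => hxy.1 (smul_left_cancel h h'), by rw [c_smul c hc]; exact hxy.2⟩
  have hconn : Γ.Connected := by
    by_cases h1 : c p x₀ = i
    · exact connected_of_primitive hprim Γ hΓ p y₀ ⟨hy₀.symm, fun h => hne (h1.trans h.symm)⟩
    · exact connected_of_primitive hprim Γ hΓ p x₀ ⟨hx₀.symm, h1⟩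
  -- common neighbours
  have hcommon : ∃ u v z, c u v = i ∧ Γ.Adj u z ∧ Γ.Adj z v := by
    by_contra hcon
    push Not at hcon
    have hcl : ∀ y, Γ.Reachable x y → y = x ∨ Γ.Adj x y := by
      intro y hy
      obtain ⟨w⟩ := hy
      suffices h : ∀ (a b : Ω) (w : Γ.Walk a b), (a = x ∨ Γ.Adj x a) → (b = x ∨ Γ.Adj x b) from
        h x y w (Or.inl rfl)
      intro a b w
      induction w with
      | nil => exact id
      | @cons a b' b hab q ih =>
        intro ha
        apply ih
        rcases ha with rfl | ha
        · exact Or.inr hab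
        · by_cases h1 : b' = x
          · exact Or.inl h1
          · by_cases h2 : c x b' = i
            · exact absurd hab (hcon x b' a h2 ha)
            · exact Or.inr ⟨Ne.symm h1, h2⟩
    rcases hcl y₁ (hconn.preconnected x y₁) with h | h
    · rw [h] at hy1
      exact hdiag x hy1
    · exact h.2 hy1
  have hcommon' : ∀ y, c x y = i → ∃ z, Γ.Adj x z ∧ Γ.Adj z y := by
    obtain ⟨u, v, z, huv, h1, h2⟩ := hcommon
    intro y hy
    rw [← hy, hc] at huv
    obtain ⟨h, rfl, rfl⟩ := huv
    exact ⟨h • z, hΓ h _ _ h1, hΓ h _ _ h2⟩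
  classical
  set k := (univ.filter (fun y => Γ.Adj x y)).card with hk
  have hdeg : ∀ w, (univ.filter (fun y => Γ.Adj w y)).card = k := fun w =>
    deg_eq htr (fun x y => Γ.Adj x y) hΓ w x
  have hkcard : k + 1 + (univ.filter (fun y => c x y = i)).card = Fintype.card Ω := by
    have h1 : (univ : Finset Ω) = insert x (univ.filter (fun y => Γ.Adj x y)) ∪
        (univ.filter (fun y => c x y = i)) := by
      ext y
      simp only [mem_univ, mem_union, mem_insert, mem_filter, true_and, true_iff]
      by_cases h1 : y = x
      · exact Or.inl (Or.inl h1)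
      · by_cases h2 : c x y = i
        · exact Or.inr h2
        · exact Or.inl (Or.inr ⟨Ne.symm h1, h2⟩)
    have h2 : Disjoint (insert x (univ.filter (fun y => Γ.Adj x y)))
        (univ.filter (fun y => c x y = i)) := by
      rw [disjoint_left]
      intro y hy hy'
      simp only [mem_insert, mem_filter, mem_univ, true_and] at hy hy'
      rcases hy with rfl | hy
      · exact hdiag y hy'
      · exact hy.2 hy'
    have h3 : x ∉ univ.filter (fun y => Γ.Adj x y) := by simp
    rw [← Finset.card_univ, h1, card_union_of_disjoint h2, card_insert_of_notMem h3, ← h1]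
  have hcover : Fintype.card Ω ≤ k + k * k := by
    have h1 : (univ : Finset Ω) ⊆ (univ.filter (fun y => Γ.Adj x y)) ∪
        (univ.filter (fun y => Γ.Adj x y)).biUnion (fun z => univ.filter (fun y => Γ.Adj z y)) := by
      intro y _
      simp only [mem_union, mem_filter, mem_univ, true_and, mem_biUnion]
      by_cases h1 : Γ.Adj x y
      · exact Or.inl h1
      · right
        by_cases h2 : y = x
        · subst h2
          obtain ⟨z, hz, _⟩ := hcommon' y₁ hy1
          exact ⟨z, hz, hz.symm⟩
        · have h3 : c x y = i := by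
            by_contra h3
            exact h1 ⟨Ne.symm h2, h3⟩
          exact hcommon' y h3
    calc Fintype.card Ω = (univ : Finset Ω).card := Finset.card_univ.symm
      _ ≤ _ := card_le_card h1
      _ ≤ _ := card_union_le _ _
      _ ≤ k + k * k := by
          apply Nat.add_le_add_left
          exact card_biUnion_le_card_mul _ _ _ (fun z _ => (hdeg z).le)
  have hk2 : Fintype.card Ω - (univ.filter (fun y => c x y = i)).card = k + 1 := by omega
  rw [hk2]
  nlinarith

/-- Every two distinct points are told apart by many points. -/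
theorem psi_bound (hprim : MulAction.IsPreprimitive G Ω)
    (hn : 2 ≤ Fintype.card Ω)
    (p x₀ y₀ : Ω) (hx₀ : x₀ ≠ p) (hy₀ : y₀ ≠ p) (hne : c p x₀ ≠ c p y₀)
    (a b : Ω) (hab : a ≠ b) :
    (Real.sqrt (Fintype.card Ω) - 1) / 2 ≤ psi c a b := by
  have htr : MulAction.IsPretransitive G Ω := hprim.toIsPretransitive
  classical
  let Γ : SimpleGraph Ω :=
    { Adj := fun x y => x ≠ y ∧ (c x y = c a b ∨ c y x = c a b)
      symm := ⟨fun u v huv => ⟨huv.1.symm, huv.2.symm⟩⟩
      loopless := ⟨fun u hu => hu.1 rfl⟩ }
  have hΓ : ∀ (h : G) (x y : Ω), Γ.Adj x y → Γ.Adj (h • x) (h • y) := by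
    intro h x y hxy
    exact ⟨fun h' => hxy.1 (smul_left_cancel h h'), by rw [c_smul c hc, c_smul c hc]; exact hxy.2⟩
  have hΓab : Γ.Adj a b := ⟨hab, Or.inl rfl⟩
  have hconn : Γ.Connected := connected_of_primitive hprim Γ hΓ a b hΓab
  have hpsi : ∀ x y, Γ.Adj x y → psi c x y = psi c a b := by
    rintro x y ⟨_, h | h⟩
    · rw [eq_comm, hc] at h
      obtain ⟨h, rfl, rfl⟩ := h
      exact psi_smul c hc h a b
    · rw [eq_comm, hc] at h
      obtain ⟨h, rfl, rfl⟩ := h
      rw [psi_symm]
      exact psi_smul c hc h a b
  have hcdist : ∀ x y z, c x z = c y z → Γ.dist x z = Γ.dist y z := by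
    intro x y z h
    rw [hc] at h
    obtain ⟨h, rfl, h2⟩ := h
    have := dist_smul Γ hconn hΓ h x z
    rw [h2] at this
    exact this.symm
  have hcadj : ∀ x y z, c x z = c y z → Γ.Adj x z → Γ.Adj y z := by
    intro x y z h hxz
    rw [hc] at h
    obtain ⟨h, rfl, h2⟩ := h
    have := hΓ h x z hxz
    rwa [h2] at this
  set n := Fintype.card Ω with hn'
  have hnR : (2 : ℝ) ≤ (n : ℝ) := by exact_mod_cast hn
  have hsq : Real.sqrt n * Real.sqrt n = n := Real.mul_self_sqrt (by positivity)
  have hsq0 : 0 ≤ Real.sqrt n := Real.sqrt_nonneg _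
  by_cases hdiam : ∃ x y, 3 ≤ Γ.dist x y
  · -- large diameter
    obtain ⟨x', y, hxy'⟩ := hdiam
    have hex : ∀ m x, Γ.dist x y = 3 + m → ∃ x'', Γ.dist x'' y = 3 := by
      intro m
      induction m with
      | zero => intro x hx; exact ⟨x, hx⟩
      | succ m ih =>
        intro x hx
        have hxy : x ≠ y := by
          rintro rfl
          rw [SimpleGraph.dist_self] at hx
          omega
        obtain ⟨w, _, hw⟩ := exists_parent Γ hconn hxy
        exact ih w (by omega)
    obtain ⟨x, hxy⟩ := hex (Γ.dist x' y - 3) x' (by omega)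
    -- a path of length three
    have hne3 : x ≠ y := by
      rintro rfl
      rw [SimpleGraph.dist_self] at hxy
      omega
    obtain ⟨x1, hx1, hd1⟩ := exists_parent Γ hconn hne3
    have hne2 : x1 ≠ y := by
      rintro rfl
      rw [SimpleGraph.dist_self] at hd1
      omega
    obtain ⟨x2, hx2, hd2⟩ := exists_parent Γ hconn hne2
    have hx3 : Γ.Adj x2 y := by
      rw [← SimpleGraph.dist_eq_one_iff_adj]
      omega
    have hle3 : psi c x y ≤ 3 * psi c a b := by
      have h1 := psi_triangle c x x1 y
      have h2 := psi_triangle c x1 x2 y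
      rw [hpsi _ _ hx1] at h1
      rw [hpsi _ _ hx2, hpsi _ _ hx3] at h2
      omega
    set d := (univ.filter (fun z => Γ.Adj x z)).card with hd
    have hdeg : ∀ w, (univ.filter (fun z => Γ.Adj w z)).card = d := fun w =>
      deg_eq htr (fun x y => Γ.Adj x y) hΓ w x
    have h2d : 2 * d ≤ psi c x y := by
      have hdisj : Disjoint (univ.filter (fun z => Γ.Adj x z)) (univ.filter (fun z => Γ.Adj y z)) := by
        rw [disjoint_left]
        intro z hz hz'
        simp only [mem_filter, mem_univ, true_and] at hz hz'
        have := hconn.dist_triangle (u := x) (v := z) (w := y)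
        rw [SimpleGraph.dist_eq_one_iff_adj.mpr hz, SimpleGraph.dist_eq_one_iff_adj.mpr hz'.symm]
          at this
        omega
      have h1 := card_union_of_disjoint hdisj
      rw [hdeg, hdeg] at h1
      calc 2 * d = (univ.filter (fun z => Γ.Adj x z) ∪ univ.filter (fun z => Γ.Adj y z)).card := by
            rw [h1]; ring
        _ ≤ psi c x y := by
            apply card_le_card
            intro z
            simp only [mem_union, mem_filter, mem_univ, true_and]
            rintro (h | h) hcz
            · have h2 := hcadj _ _ _ hcz h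
              exact disjoint_left.mp hdisj (by simpa using h) (by simpa using h2)
            · have h2 := hcadj _ _ _ hcz.symm h
              exact disjoint_left.mp hdisj (by simpa using h2) (by simpa using h)
    -- edges crossing levels
    have hcross : n * (n - 1) ≤ n * (d * psi c a b) := by
      have h1 : ∑ u : Ω, ∑ v ∈ univ.filter (fun z => Γ.Adj u z), psi c u v = n * (d * psi c a b) := by
        have : ∀ u ∈ (univ : Finset Ω), ∑ v ∈ univ.filter (fun z => Γ.Adj u z), psi c u v
            = d * psi c a b := by
          intro u _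
          rw [sum_congr rfl (g := fun _ => psi c a b), sum_const, hdeg, smul_eq_mul]
          intro v hv
          simp only [mem_filter, mem_univ, true_and] at hv
          exact hpsi _ _ hv
        rw [sum_congr rfl this, sum_const, smul_eq_mul, Finset.card_univ]
      have h2 : ∑ u : Ω, ∑ v ∈ univ.filter (fun z => Γ.Adj u z), psi c u v
          = ∑ z : Ω, ∑ u : Ω, ∑ v ∈ univ.filter (fun z => Γ.Adj u z),
            (if c u z ≠ c v z then 1 else 0) := by
        rw [sum_comm]
        apply sum_congr rfl
        intro u _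
        rw [sum_comm]
        apply sum_congr rfl
        intro v _
        unfold psi
        rw [card_filter]
      rw [← h1, h2]
      have h3 : ∀ z ∈ (univ : Finset Ω), n - 1 ≤ ∑ u : Ω, ∑ v ∈ univ.filter (fun z => Γ.Adj u z),
            (if c u z ≠ c v z then 1 else 0) := by
        intro z _
        calc n - 1 = (univ.erase z).card := by rw [card_erase_of_mem (mem_univ _), Finset.card_univ]
          _ = ∑ u ∈ univ.erase z, 1 := by simp
          _ ≤ ∑ u ∈ univ.erase z, ∑ v ∈ univ.filter (fun z => Γ.Adj u z),
                (if c u z ≠ c v z then 1 else 0) := by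
              apply sum_le_sum
              intro u hu
              obtain ⟨v, huv, hv⟩ := exists_parent Γ hconn (ne_of_mem_erase hu)
              have hcne : c u z ≠ c v z := by
                intro h
                have := hcdist _ _ _ h
                omega
              calc 1 = (if c u z ≠ c v z then 1 else 0) := by rw [if_pos hcne]
                _ ≤ _ := single_le_sum (f := fun v => if c u z ≠ c v z then 1 else 0)
                  (fun _ _ => Nat.zero_le _) (by simpa using huv)
          _ ≤ _ := sum_le_sum_of_subset (subset_univ _)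
      calc n * (n - 1) = ∑ z : Ω, (n - 1) := by rw [sum_const, smul_eq_mul, Finset.card_univ]
        _ ≤ _ := sum_le_sum h3
    have hcross' : n - 1 ≤ d * psi c a b := Nat.le_of_mul_le_mul_left hcross (by omega)
    have hfin : 2 * (n - 1) ≤ 3 * (psi c a b * psi c a b) := by
      calc 2 * (n - 1) ≤ 2 * (d * psi c a b) := by omega
        _ = (2 * d) * psi c a b := by ring
        _ ≤ (3 * psi c a b) * psi c a b := Nat.mul_le_mul_right _ (h2d.trans hle3)
        _ = _ := by ring
    have hfinR : 2 * ((n : ℝ) - 1) ≤ 3 * ((psi c a b : ℝ) * psi c a b) := by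
      have h1 : ((2 * (n - 1) : ℕ) : ℝ) ≤ ((3 * (psi c a b * psi c a b) : ℕ) : ℝ) := by
        exact_mod_cast hfin
      push_cast [Nat.cast_sub (show 1 ≤ n by omega)] at h1
      exact h1
    have hpos : (0 : ℝ) ≤ psi c a b := Nat.cast_nonneg _
    have h4 : Real.sqrt n ≤ 2 * psi c a b := by
      apply Real.sqrt_le_iff.mpr
      constructor
      · positivity
      · nlinarith
    linarith
  · push Not at hdiam
    -- small diameter
    have hle2 : ∀ y, psi c a y ≤ 2 * psi c a b := by
      intro y
      by_cases hay : a = y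
      · subst hay
        have : psi c a a = 0 := by simp [psi]
        omega
      obtain ⟨w, hw, hwd⟩ := exists_parent Γ hconn hay
      have h1 := hdiam a y
      have h2 := psi_triangle c a w y
      rw [hpsi _ _ hw] at h2
      by_cases hwy : w = y
      · subst hwy
        have : psi c w w = 0 := by simp [psi]
        omega
      · have hwy' : Γ.Adj w y := by
          rw [← SimpleGraph.dist_eq_one_iff_adj]
          have := hconn.pos_dist_of_ne hwy
          omega
        rw [hpsi _ _ hwy'] at h2
        omega
    have hsum : ∑ y : Ω, psi c a y = ∑ z : Ω, (n - (univ.filter (fun y => c a y = c a z)).card) := by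
      unfold psi
      simp only [card_filter (fun z => c a z ≠ c _ z)]
      rw [sum_comm]
      apply sum_congr rfl
      intro z _
      rw [← card_filter, ← indeg_eq_outdeg c hc htr (c a z) a z]
      have h1 := card_filter_add_card_filter_not (s := (univ : Finset Ω)) (fun y => c y z = c a z)
      rw [Finset.card_univ] at h1
      have h2 : (univ.filter (fun y => c a z ≠ c y z)) = (univ.filter (fun y => ¬ c y z = c a z)) := by
        ext y
        simp only [mem_filter, mem_univ, true_and]
        exact ne_comm
      rw [h2]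
      omega
    have hcol : ∀ z, Real.sqrt n - 1 ≤ ((n - (univ.filter (fun y => c a y = c a z)).card : ℕ) : ℝ) := by
      intro z
      rcases colour_bound c hc hprim hn p x₀ y₀ hx₀ hy₀ hne (c a z) a with h | h
      · set k := Fintype.card Ω - (univ.filter (fun y => c a y = c a z)).card with hk
        have h' : (n : ℝ) ≤ (k : ℝ) ^ 2 := by exact_mod_cast h
        have : Real.sqrt n ≤ k := by
          apply Real.sqrt_le_iff.mpr
          exact ⟨Nat.cast_nonneg _, h'⟩
        linarith
      · set k := Fintype.card Ω - (univ.filter (fun y => c a y = c a z)).card with hk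
        have h' : (n : ℝ) ≤ 2 * (k : ℝ) := by exact_mod_cast h
        nlinarith [sq_nonneg (Real.sqrt n - 1)]
    have hlow : (n : ℝ) * (Real.sqrt n - 1) ≤ ((∑ y : Ω, psi c a y : ℕ) : ℝ) := by
      rw [hsum]
      rw [Nat.cast_sum]
      calc (n : ℝ) * (Real.sqrt n - 1) = ∑ z : Ω, (Real.sqrt n - 1) := by
            rw [sum_const, Finset.card_univ, nsmul_eq_mul]
        _ ≤ _ := sum_le_sum (fun z _ => hcol z)
    have hup : (∑ y : Ω, psi c a y) ≤ n * (2 * psi c a b) := by
      calc (∑ y : Ω, psi c a y) ≤ ∑ y : Ω, 2 * psi c a b := sum_le_sum (fun y _ => hle2 y)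
        _ = _ := by rw [sum_const, Finset.card_univ, smul_eq_mul]
    have hupR : ((∑ y : Ω, psi c a y : ℕ) : ℝ) ≤ (n : ℝ) * (2 * psi c a b) := by
      exact_mod_cast hup
    have : (n : ℝ) * (Real.sqrt n - 1) ≤ (n : ℝ) * (2 * psi c a b) := hlow.trans hupR
    have := le_of_mul_le_mul_left this (by linarith)
    linarith

end Colours

end Cfsg.Agent.H891.MinDeg
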